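import Cfsg.Agent.BpSpor.MFiveAbs

/-!
# An element `y` with `y ^ 3 = x` in the situation `Rad 3` (helper570)

`D = N C_D(z)`, `τ` an involution commuting with `z`, `y` commuting with `τ`, `y ^ 3 = x`:
`|C(τ) ∩ C(y)| ≤ |N ∩ C(τ)| · 2 m` if `m` bounds `|C_A(v) ∩ C_A(w)|` for `w` of order 3 or 9.
-/

set_option autoImplicit false
set_option linter.unusedSectionVars false

namespace Cfsg.Agent.H570.TwoB.RadNine

open Subgroup Cfsg Cfsg.Agent.BpSpor.M5

universe u v

variable {D : Type u} [Group D] [Finite D] {z x : D} {N : Subgroup D} {A : Type v} [Group A] [Finite A]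
  {f : ↥(centralizer ({z} : Set D)) →* A}

/-- `y ∉ N` -/
theorem notMem (h : Rad 3 z x N f) {y : D} (hy : y ^ 3 = x) : y ∉ N := by
  have hp : Fact (Nat.Prime 3) := ⟨Nat.prime_three⟩
  intro hyN
  obtain ⟨i, hi⟩ := h.inv (by norm_num) hyN
  have hx3 : x ^ 3 = 1 := by rw [← h.ox, pow_orderOf_eq_one]
  have h1 : z * x * z⁻¹ = x := by
    rw [h.xc z, mul_inv_cancel_right]
  have h2 : (z * y * z⁻¹) ^ 3 = x := by
    rw [conj_pow, hy, h1]
  rw [hi] at h2
  have hc : Commute y⁻¹ (x ^ i) := (h.xzc i y⁻¹)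
  rw [hc.mul_pow] at h2
  have h3 : (x ^ i) ^ 3 = 1 := by
    rw [← zpow_natCast, ← zpow_mul, mul_comm, zpow_mul, zpow_natCast, hx3, one_zpow]
  rw [h3, mul_one, inv_pow, hy] at h2
  have h4 : x * x = 1 := by
    nth_rewrite 1 [← h2]
    exact inv_mul_cancel x
  have h5 : x = 1 := by
    have h6 : x ^ 3 = x * x * x := by rw [pow_succ, pow_two]
    rw [h6, h4, one_mul] at hx3
    exact hx3
  have h7 := h.ox
  rw [h5, orderOf_one] at h7
  norm_num at h7

/-- the kernel of `f` -/
theorem card_ker (h : Rad 3 z x N f) : Nat.card ↥f.ker ≤ 6 := by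
  have hp : Fact (Nat.Prime 3) := ⟨Nat.prime_three⟩
  let F : ↥(zpowers x) × Bool → D := fun a => if a.2 then (a.1 : D) * z else a.1
  have h1 : Nat.card ↥(Set.range F) ≤ 6 := by
    refine (Finite.card_range_le F).trans ?_
    rw [Nat.card_prod, Nat.card_zpowers, h.ox]
    simp
  refine le_trans ?_ h1
  refine Nat.card_le_card_of_injective (fun c : ↥f.ker => (⟨((c : ↥(centralizer ({z} : Set D))) : D), ?_⟩ : ↥(Set.range F))) ?_
  · obtain ⟨i, hi | hi⟩ := h.ker c (MonoidHom.mem_ker.1 c.2)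
    · exact ⟨(⟨x ^ i, zpow_mem_zpowers x i⟩, false), by rw [hi]; simp [F]⟩
    · exact ⟨(⟨x ^ i, zpow_mem_zpowers x i⟩, true), by rw [hi]; simp [F]⟩
  · intro c d hcd
    have h0 : ((c : ↥(centralizer ({z} : Set D))) : D) = ((d : ↥(centralizer ({z} : Set D))) : D) :=
      congrArg (fun a : ↥(Set.range F) => (a : D)) hcd
    exact Subtype.ext (Subtype.ext h0)

/-- elements of `C(z)` commuting modulo `N` commute under `f` -/
theorem f_comm [IsSimpleGroup A] (hAc : ¬ Group.IsSolvable A) (h : Rad 3 z x N f) (c d : ↥(centralizer ({z} : Set D)))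
    (hcd : ∃ n ∈ N, (c : D) * d = n * (d * c)) : f c * f d = f d * f c := by
  obtain ⟨n, hn, h1⟩ := hcd
  have hc := mem_centralizer_singleton_iff.1 c.2
  have hd := mem_centralizer_singleton_iff.1 d.2
  have hnz : n * z = z * n := by
    have e : n = (c : D) * d * ((d : D) * c)⁻¹ := by rw [h1]; group
    have h2 : Commute ((c : D) * d * ((d : D) * c)⁻¹) z :=
      ((show Commute (c : D) z from hc).mul_left (show Commute (d : D) z from hd)).mul_left
        ((show Commute (d : D) z from hd).mul_left (show Commute (c : D) z from hc)).inv_left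
    rw [e]
    exact h2.eq
  obtain ⟨i, hi⟩ := mem_zpowers_iff.1 (h.cN n hn hnz)
  have fx : f ⟨n, mem_centralizer_singleton_iff.2 hnz⟩ = 1 :=
    h.f_central hAc fun g => Subtype.ext (by
      show (g : D) * n = n * g
      rw [← hi]
      exact h.xzc i g)
  have h3 : c * d = (⟨n, mem_centralizer_singleton_iff.2 hnz⟩ : ↥(centralizer ({z} : Set D))) * (d * c) :=
    Subtype.ext h1
  rw [← map_mul, h3, map_mul, fx, one_mul, map_mul]

theorem rad_nine [IsSimpleGroup A] (hAc : ¬ Group.IsSolvable A) (h : Rad 3 z x N f) {τ y : D} (hτ : τ * τ = 1)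
    (hτ1 : τ ≠ 1) (hτz : τ * z = z * τ) (hτne : τ ≠ z) (hy : y ^ 3 = x) (hyτ : y * τ = τ * y) {m : ℕ}
    (hm : ∀ v w : A, orderOf v = 2 → 3 ∣ orderOf w → ¬ 2 ∣ orderOf w → v * w = w * v →
      Nat.card ↥(centralizer ({v} : Set A) ⊓ centralizer ({w} : Set A) : Subgroup A) ≤ m) :
    Nat.card ↥(centralizer ({τ} : Set D) ⊓ centralizer ({y} : Set D) : Subgroup D) ≤
      Nat.card ↥(N ⊓ centralizer ({τ} : Set D) : Subgroup D) * (2 * m) := by
  have hp : Fact (Nat.Prime 3) := ⟨Nat.prime_three⟩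
  have hN := h.nN
  have hx3 : x ^ 3 = 1 := by rw [← h.ox, pow_orderOf_eq_one]
  have hy9 : y ^ 9 = 1 := by
    rw [show (9 : ℕ) = 3 * 3 from rfl, pow_mul, hy, hx3]
  obtain ⟨n0, hn0, c0, hc0, hyc⟩ := h.sup y
  let c0' : ↥(centralizer ({z} : Set D)) := ⟨c0, mem_centralizer_singleton_iff.2 hc0⟩
  let τ' : ↥(centralizer ({z} : Set D)) := ⟨τ, mem_centralizer_singleton_iff.2 hτz⟩
  have hq : ∀ {a b : D}, (∃ n ∈ N, a = n * b) ↔ (QuotientGroup.mk a : D ⧸ N) = QuotientGroup.mk b := by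
    intro a b
    constructor
    · rintro ⟨n, hn, rfl⟩
      rw [QuotientGroup.mk_mul, (QuotientGroup.eq_one_iff n).2 hn, one_mul]
    · intro hab
      refine ⟨a * b⁻¹, ?_, by group⟩
      rw [← QuotientGroup.eq_one_iff, QuotientGroup.mk_mul, hab, QuotientGroup.mk_inv, mul_inv_cancel]
  have hqy : (QuotientGroup.mk y : D ⧸ N) = QuotientGroup.mk c0 := hq.1 ⟨n0, hn0, hyc⟩
  have hcomm : ∀ (a b : D), a * b = b * a → ∀ c d : D, (QuotientGroup.mk a : D ⧸ N) = QuotientGroup.mk c →
      (QuotientGroup.mk b : D ⧸ N) = QuotientGroup.mk d → ∃ n ∈ N, c * d = n * (d * c) := by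
    intro a b hab c d hc hd
    rw [hq, QuotientGroup.mk_mul, QuotientGroup.mk_mul, ← hc, ← hd, ← QuotientGroup.mk_mul, hab,
      QuotientGroup.mk_mul]
  -- `f τ` is an involution
  have hv : orderOf (f τ') = 2 := by
    refine orderOf_eq_prime ?_ fun h1 => ?_
    · rw [pow_two, ← map_mul]
      have h1 : τ' * τ' = 1 := Subtype.ext hτ
      rw [h1, map_one]
    · obtain ⟨i, hi | hi⟩ := h.ker _ h1
      · have h2 : τ = x ^ i := hi
        have h3 := h.sq_one (by norm_num) (i := i) (by rw [← h2, hτ])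
        rw [h3] at h2
        exact hτ1 h2
      · have h2 : τ = x ^ i * z := hi
        have h4 : x ^ i * x ^ i = 1 := by
          have h5 := h.xzc i z
          calc x ^ i * x ^ i = x ^ i * x ^ i * (z * z) := by rw [h.zz, mul_one]
            _ = x ^ i * (x ^ i * z) * z := by group
            _ = x ^ i * (z * x ^ i) * z := by rw [h5]
            _ = (x ^ i * z) * (x ^ i * z) := by group
            _ = 1 := by rw [← h2, hτ]
        rw [h.sq_one (by norm_num) h4, one_mul] at h2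
        exact hτne h2
  -- `f c0` has order 3 or 9
  have hw9 : (f c0') ^ 9 = 1 := by
    have h1 : c0 ^ 9 ∈ N := by
      rw [← QuotientGroup.eq_one_iff, QuotientGroup.mk_pow, ← hqy, ← QuotientGroup.mk_pow, hy9, QuotientGroup.mk_one]
    have h2 : c0 ^ 9 * z = z * c0 ^ 9 := ((show Commute c0 z from hc0).pow_left 9).eq
    obtain ⟨i, hi⟩ := mem_zpowers_iff.1 (h.cN _ h1 h2)
    rw [← map_pow]
    exact h.f_central hAc fun g => Subtype.ext (by
      show (g : D) * c0 ^ 9 = c0 ^ 9 * g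
      rw [← hi]
      exact h.xzc i g)
  have hw1 : f c0' ≠ 1 := by
    intro h1
    have hyN := notMem h hy
    apply hyN
    obtain ⟨i, hi | hi⟩ := h.ker _ h1
    · have h2 : c0 = x ^ i := hi
      rw [hyc, h2]
      exact N.mul_mem hn0 (N.zpow_mem h.xN i)
    · have h2 : c0 = x ^ i * z := hi
      have h3 : (QuotientGroup.mk y : D ⧸ N) = QuotientGroup.mk z := by
        rw [hqy, h2, QuotientGroup.mk_mul, (QuotientGroup.eq_one_iff (x ^ i)).2 (N.zpow_mem h.xN i), one_mul]
      rw [← QuotientGroup.eq_one_iff]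
      have h4 : (QuotientGroup.mk y : D ⧸ N) * QuotientGroup.mk y = 1 := by
        rw [h3, ← QuotientGroup.mk_mul, h.zz, QuotientGroup.mk_one]
      have h5 : (QuotientGroup.mk y : D ⧸ N) ^ 9 = 1 := by
        rw [← QuotientGroup.mk_pow, hy9, QuotientGroup.mk_one]
      rw [show (9 : ℕ) = 2 * 4 + 1 from rfl, pow_succ, pow_mul, pow_two, h4, one_pow, one_mul] at h5
      exact h5
  have hwd : orderOf (f c0') ∣ 3 ^ 2 := orderOf_dvd_of_pow_eq_one hw9
  obtain ⟨k, hk, hwk⟩ := (Nat.dvd_prime_pow Nat.prime_three).1 hwd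
  have hk0 : k ≠ 0 := by
    rintro rfl
    rw [pow_zero, orderOf_eq_one_iff] at hwk
    exact hw1 hwk
  have hw3 : 3 ∣ orderOf (f c0') := by rw [hwk]; exact dvd_pow_self 3 hk0
  have hw2 : ¬ 2 ∣ orderOf (f c0') := by
    rw [hwk]
    intro h1
    have h2 := Nat.prime_two.dvd_of_dvd_pow h1
    norm_num at h2
  have hvw : f τ' * f c0' = f c0' * f τ' :=
    f_comm hAc h τ' c0' (hcomm τ y hyτ.symm τ c0 rfl hqy)
  have hmm := hm _ _ hv hw3 hw2 hvw
  -- the count
  set Y : Subgroup D := centralizer ({τ} : Set D) ⊓ centralizer ({y} : Set D) with hY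
  let S : Subgroup ↥(centralizer ({z} : Set D)) :=
    (Y.map (QuotientGroup.mk' N)).comap ((QuotientGroup.mk' N).comp (centralizer ({z} : Set D)).subtype)
  have hSf : S.map f ≤ centralizer ({f τ'} : Set A) ⊓ centralizer ({f c0'} : Set A) := by
    rintro _ ⟨c, ⟨g, hg, hgc⟩, rfl⟩
    have hgc' : (QuotientGroup.mk g : D ⧸ N) = QuotientGroup.mk (c : D) := hgc
    refine ⟨mem_centralizer_singleton_iff.2 ?_, mem_centralizer_singleton_iff.2 ?_⟩
    · exact f_comm hAc h c τ' (hcomm g τ (mem_centralizer_singleton_iff.1 hg.1) c τ hgc' rfl)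
    · exact f_comm hAc h c c0' (hcomm g y (mem_centralizer_singleton_iff.1 hg.2) c c0 hgc' hqy)
  have hS1 : Nat.card ↥S ≤ 6 * m := by
    have h1 : Nat.card ↥S = Nat.card ↥(S.map f) * Nat.card ↥(f.subgroupMap S).ker := by
      rw [← (f.subgroupMap S).ker.index_mul_card, index_ker, MonoidHom.range_eq_top.2 (f.subgroupMap_surjective S),
        Nat.card_congr topEquiv.toEquiv]
    have h2 : Nat.card ↥(f.subgroupMap S).ker ≤ 6 := by
      refine le_trans ?_ (card_ker h)
      refine Nat.card_le_card_of_injective (fun c : ↥(f.subgroupMap S).ker => (⟨(c : ↥S), ?_⟩ : ↥f.ker)) ?_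
      · exact MonoidHom.mem_ker.2 (congrArg Subtype.val (MonoidHom.mem_ker.1 c.2))
      · intro c d hcd
        exact Subtype.ext (Subtype.ext (congrArg (fun a : ↥f.ker => (a : ↥(centralizer ({z} : Set D)))) hcd))
    have h3 : Nat.card ↥(S.map f) ≤ m := (Nat.card_le_card_of_injective _ (inclusion_injective hSf)).trans hmm
    rw [h1, mul_comm 6 m]
    exact Nat.mul_le_mul h3 h2
  -- `|S| = 3 |q Y|`
  have hqs : Nat.card ↥S = 3 * Nat.card ↥(Y.map (QuotientGroup.mk' N)) := by
    set α : ↥(centralizer ({z} : Set D)) →* D ⧸ N :=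
      (QuotientGroup.mk' N).comp (centralizer ({z} : Set D)).subtype with hα
    have hαs : Function.Surjective α := by
      intro a
      obtain ⟨g, rfl⟩ := QuotientGroup.mk'_surjective N a
      obtain ⟨n, hn, c, hc, rfl⟩ := h.sup g
      refine ⟨⟨c, mem_centralizer_singleton_iff.2 hc⟩, ?_⟩
      exact (hq.1 ⟨n, hn, rfl⟩).symm
    have hαk : Nat.card ↥α.ker = 3 := by
      have e : α.ker.map (centralizer ({z} : Set D)).subtype = zpowers x := by
        ext g
        constructor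
        · rintro ⟨c, hc, rfl⟩
          exact h.cN _ ((QuotientGroup.eq_one_iff _).1 (MonoidHom.mem_ker.1 hc)) (mem_centralizer_singleton_iff.1 c.2)
        · intro hg
          obtain ⟨i, rfl⟩ := mem_zpowers_iff.1 hg
          refine ⟨⟨x ^ i, mem_centralizer_singleton_iff.2 (h.xzc i z).symm⟩, ?_, rfl⟩
          exact MonoidHom.mem_ker.2 ((QuotientGroup.eq_one_iff _).2 (N.zpow_mem h.xN i))
      rw [← card_map_of_injective (centralizer ({z} : Set D)).subtype_injective, e, Nat.card_zpowers, h.ox]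
    have h1 : Nat.card ↥S = Nat.card ↥α.ker * Nat.card ↥(Y.map (QuotientGroup.mk' N)) := by
      have h2 : S.map α = Y.map (QuotientGroup.mk' N) := map_comap_eq_self_of_surjective hαs _
      have h3 : α.ker ≤ S := fun c hc => by
        have h30 : α c ∈ Y.map (QuotientGroup.mk' N) := by
          rw [MonoidHom.mem_ker.1 hc]
          exact one_mem _
        exact h30
      have h4 : Nat.card ↥S = Nat.card ↥(S.map α) * Nat.card ↥(α.subgroupMap S).ker := by
        rw [← (α.subgroupMap S).ker.index_mul_card, index_ker, MonoidHom.range_eq_top.2 (α.subgroupMap_surjective S),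
          Nat.card_congr topEquiv.toEquiv]
      have h5 : Nat.card ↥(α.subgroupMap S).ker = Nat.card ↥α.ker := by
        refine Nat.card_congr ⟨fun c => ⟨(c : ↥S), MonoidHom.mem_ker.2 (congrArg Subtype.val (MonoidHom.mem_ker.1 c.2))⟩,
          fun c => ⟨⟨c, h3 c.2⟩, MonoidHom.mem_ker.2 (Subtype.ext (MonoidHom.mem_ker.1 c.2))⟩, fun _ => rfl, fun _ => rfl⟩
      rw [h4, h5, h2, mul_comm]
    rw [h1, hαk]
  have h7 : Nat.card ↥(Y.map (QuotientGroup.mk' N)) ≤ 2 * m := by omega
  -- `|Y| ≤ |N ∩ C(τ)| |q Y|`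
  have h8 : Nat.card ↥Y = Nat.card ↥(Y.map (QuotientGroup.mk' N)) * Nat.card ↥((QuotientGroup.mk' N).subgroupMap Y).ker := by
    rw [← ((QuotientGroup.mk' N).subgroupMap Y).ker.index_mul_card, index_ker,
      MonoidHom.range_eq_top.2 ((QuotientGroup.mk' N).subgroupMap_surjective Y), Nat.card_congr topEquiv.toEquiv]
  have h9 : Nat.card ↥((QuotientGroup.mk' N).subgroupMap Y).ker ≤ Nat.card ↥(N ⊓ centralizer ({τ} : Set D) : Subgroup D) := by
    refine Nat.card_le_card_of_injective (fun c : ↥((QuotientGroup.mk' N).subgroupMap Y).ker =>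
      (⟨((c : ↥Y) : D), ?_, (c : ↥Y).2.1⟩ : ↥(N ⊓ centralizer ({τ} : Set D) : Subgroup D))) ?_
    · exact (QuotientGroup.eq_one_iff _).1 (congrArg Subtype.val (MonoidHom.mem_ker.1 c.2))
    · intro c d hcd
      have h0 : ((c : ↥Y) : D) = ((d : ↥Y) : D) :=
        congrArg (fun a : ↥(N ⊓ centralizer ({τ} : Set D) : Subgroup D) => (a : D)) hcd
      exact Subtype.ext (Subtype.ext h0)
  rw [h8, mul_comm]
  exact Nat.mul_le_mul h9 h7

end Cfsg.Agent.H570.TwoB.RadNine
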