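import Cfsg.Agent.H123.Cls.SuzOre

/-!
# Centralizers of the elements of order divisible by six in the Suzuki group (helper570)

`six` : `|C(g)| ≤ 6912` if `6 ∣ |g|`; `pair_le` : `|C(v) ∩ C(w)| ≤ 6912` for commuting `v` of order 2, `w` of odd order
divisible by three. From the class cover of helper123.
-/

set_option autoImplicit false
set_option maxRecDepth 1000000
set_option exponentiation.threshold 5000

namespace Cfsg.Agent.H570.TwoB.SuzSix

open Cfsg Cfsg.Spor Cfsg.Agent.H123.Cls Cfsg.Agent.Lib.BitNet Cfsg.Agent.H123.Cls.SuzDat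
open Cfsg.Agent.H763.Ore.SuzModel (A N A_conj card_A card_N N_le_A)
open Cfsg.Agent.OddHalf.Table.SuzRep (ψ ψ_val ψ_injective)
open Subgroup

universe u

/-- `r ^ j = 1` -/
noncomputable def chkI (j P : ℕ) : Bool := allN (fun p => Nat.beq (it 11 P j p) p) 1782

/-- the bound or the order -/
noncomputable def chkD (x : ℕ × ℕ × List ℕ) : Bool :=
  or (Nat.ble (x.2.1 + 1) 6912) (or (chkI 4 x.1) (chkI 3 x.1))

theorem D_chk : D.all chkD = true := by
  unfold D
  decide +kernel

theorem pow_one_of_chk {j P : ℕ} (h : chkI j P = true) {r : Equiv.Perm (Fin 1782)}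
    (hr : ∀ p : Fin 1782, (r p : ℕ) = lk 11 P p) : r ^ j = 1 := by
  ext p
  have h1 := (allN_iff _ _).1 h p p.2
  rw [it_eq hr] at h1
  exact Nat.eq_of_beq_eq_true h1

theorem six (g : Suz) (h2 : 2 ∣ orderOf g) (h3 : 3 ∣ orderOf g) :
    Nat.card ↥(centralizer ({g} : Set Suz)) ≤ 6912 := by
  obtain ⟨x, hx, r, hrN, hr, b, hb, h⟩ := suz_cover (ψ g) ⟨g, rfl⟩
  have hc := List.all_eq_true.1 D_chk x hx
  have hpow : ∀ j : ℕ, chkI j x.1 = true → orderOf g ∣ j := by
    intro j hj
    apply orderOf_dvd_of_pow_eq_one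
    apply ψ_injective
    rw [map_pow, h, map_one, conj_pow, pow_one_of_chk hj hr, mul_one, mul_inv_cancel]
  rw [chkD, Bool.or_eq_true, Bool.or_eq_true] at hc
  rcases hc with hc | hc | hc
  · have h5 : x.2.1 + 1 ≤ 6912 := Nat.le_of_ble_eq_true hc
    refine le_trans ?_ h5
    obtain ⟨l, L, hbd⟩ := D_bd x hx
    have h6 := card_le_bound (n := 1782) (K := 11) (by norm_num) hr hbd
      (H := centralizer ({r} : Set (Equiv.Perm (Fin 1782))) ⊓ N) (inf_le_right.trans (N_le_A.trans H763.Ore.SuzTab.A_le_Aut))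
      (fun σ hσ i => by
        have h7 := mem_centralizer_singleton_iff.1 hσ.1
        have h8 := congrArg (fun s : Equiv.Perm (Fin 1782) => s i) h7
        exact h8)
    refine le_trans ?_ h6
    have hbN : ∀ c : Suz, b⁻¹ * ψ c * b ∈ N := fun c => by
      have h9 := A_conj (A.inv_mem hb) (⟨c, rfl⟩ : ψ c ∈ N)
      rwa [inv_inv] at h9
    refine Nat.card_le_card_of_injective (fun c : ↥(centralizer ({g} : Set Suz)) =>
      (⟨b⁻¹ * ψ c * b, mem_centralizer_singleton_iff.2 ?_, hbN c⟩ :
        ↥(centralizer ({r} : Set (Equiv.Perm (Fin 1782))) ⊓ N))) ?_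
    · have h10 : ψ c * ψ g = ψ g * ψ c := by
        rw [← map_mul, mem_centralizer_singleton_iff.1 c.2, map_mul]
      have h11 : r = b⁻¹ * ψ g * b := by rw [h]; group
      rw [h11]
      calc b⁻¹ * ψ c * b * (b⁻¹ * ψ g * b) = b⁻¹ * (ψ c * ψ g) * b := by group
        _ = b⁻¹ * (ψ g * ψ c) * b := by rw [h10]
        _ = _ := by group
    · intro c d hcd
      have h12 : b⁻¹ * ψ c * b = b⁻¹ * ψ d * b := congrArg Subtype.val hcd
      exact Subtype.ext (ψ_injective (mul_left_cancel (mul_right_cancel h12)))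
  · have h5 := h3.trans (hpow 4 hc)
    norm_num at h5
  · have h5 := h2.trans (hpow 3 hc)
    norm_num at h5

/-- commuting elements `v` of order two, `w` of odd order divisible by three -/
theorem pair_le {X : Type u} [Group X] (h : Spor.IsoSuz X) {v w : X} (hv : orderOf v = 2) (hw : 3 ∣ orderOf w)
    (hwo : ¬ 2 ∣ orderOf w) (hc : v * w = w * v) :
    Nat.card ↥(centralizer ({v} : Set X) ⊓ centralizer ({w} : Set X) : Subgroup X) ≤ 6912 := by
  obtain ⟨e⟩ := h
  have ho : orderOf (v * w) = 2 * orderOf w := by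
    have h1 : (orderOf v).Coprime (orderOf w) := by
      rw [hv]
      exact (Nat.prime_two.coprime_iff_not_dvd).2 hwo
    rw [(show Commute v w from hc).orderOf_mul_eq_mul_orderOf_of_coprime h1, hv]
  have h1 := six (e (v * w)) (by rw [MulEquiv.orderOf_eq, ho]; exact dvd_mul_right _ _)
    (by rw [MulEquiv.orderOf_eq, ho]; exact hw.mul_left _)
  refine le_trans ?_ h1
  have hf : Finite ↥(centralizer ({e (v * w)} : Set Suz)) := by
    have : Finite Suz := Nat.finite_of_card_ne_zero (by rw [SporadicRecognition.SuzOrder.card_Suz]; norm_num)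
    infer_instance
  refine Nat.card_le_card_of_injective (fun c : ↥(centralizer ({v} : Set X) ⊓ centralizer ({w} : Set X) : Subgroup X) =>
    (⟨e c, mem_centralizer_singleton_iff.2 ?_⟩ : ↥(centralizer ({e (v * w)} : Set Suz)))) ?_
  · have h2 := mem_centralizer_singleton_iff.1 c.2.1
    have h3 := mem_centralizer_singleton_iff.1 c.2.2
    rw [← map_mul, ← map_mul]
    congr 1
    calc (c : X) * (v * w) = ((c : X) * v) * w := by group
      _ = v * ((c : X) * w) := by rw [h2]; group
      _ = v * w * c := by rw [h3]; group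
  · intro c d hcd
    exact Subtype.ext (e.injective (congrArg Subtype.val hcd))

end Cfsg.Agent.H570.TwoB.SuzSix
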